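import Cfsg.Agent.H9.J2.A5
import Cfsg.Agent.H9.J2FDefs

/-!
# The 2-local data of `J2` for the fusion-system criterion (helper9)
-/

set_option autoImplicit false
open Quaternion

namespace Cfsg.Agent.H9.J2

open Q8 Cfsg.Spor MulAction Cfsg.Agent.H9.J2F

/-- the involution `t`: the image of the first reflection -/
noncomputable def tJ : J2 := piJ (rG (xk 0))

/-- the reflection `Fk k` as an element of `2.J2` -/
noncomputable def fG (k : ℕ) : ↥twoJ2 := ⟨Fk k, Fk_mem k⟩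

theorem fG_eq (k : ℕ) : fG k = rG (xk k) := rfl

theorem fG_mul_self (k : ℕ) : fG k * fG k = 1 := Subtype.ext (Fk_mul_self k)

theorem fG_inv (k : ℕ) : (fG k)⁻¹ = fG k := inv_eq_of_mul_eq_one_left (fG_mul_self k)

theorem piJ_nuG : piJ nuG = 1 := (QuotientGroup.eq_one_iff _).2 nu_center

theorem zQ_val : ((zQ : ↥QS) : ↥twoJ2) = nuG * fG 0 := by
  apply Subtype.ext
  show zP = nu * Fk 0
  rw [Fk0_eq]
  rfl

theorem piJ_zQ : piJ ((zQ : ↥QS) : ↥twoJ2) = tJ := by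
  rw [zQ_val, map_mul, piJ_nuG, one_mul]
  rfl

theorem hC_J2 (g : J2) : g ∈ C0 ↔ g * tJ = tJ * g := by
  have h := cent_eq_stab (xk 0)
  show g ∈ stabilizer J2 (xk 0) ↔ _
  rw [← h, Subgroup.mem_centralizer_iff]
  constructor
  · intro h1
    exact (h1 _ (Set.mem_singleton _)).symm
  · intro h1 y hy
    rw [Set.mem_singleton_iff] at hy
    subst hy
    exact h1.symm

theorem tJ_ne_one : tJ ≠ 1 := by
  intro h
  have h1 := cent_eq_stab (xk 0)
  have h2 : Subgroup.centralizer {(piJ (rG (xk 0)) : J2)} = ⊤ := by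
    rw [eq_top_iff]
    intro g _
    rw [Subgroup.mem_centralizer_iff]
    intro y hy
    rw [Set.mem_singleton_iff] at hy
    have hy' : y = 1 := hy.trans h
    rw [hy', one_mul, mul_one]
  have h3 := card_stab0
  rw [← h1, h2, Subgroup.card_top, card_J2] at h3
  norm_num at h3

/-- membership in `Q = ker PhiH`, as a subgroup of `J2` -/
theorem mem_kerJ2 (x : J2) : x ∈ kerJ C0 PhiH ↔ ∃ q : ↥QS, piJ (q : ↥twoJ2) = x := by
  rw [mem_kerJ]
  constructor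
  · rintro ⟨h, h1⟩
    have h2 : (⟨x, h⟩ : ↥C0) ∈ PhiH.ker := MonoidHom.mem_ker.2 h1
    rw [ker_eq] at h2
    obtain ⟨q, hq⟩ := h2
    refine ⟨q, ?_⟩
    rw [← qHom_val, hq]
  · rintro ⟨q, rfl⟩
    exact ⟨(qHom q).2, qHom_ker q⟩

theorem hker_J2 : Nat.card ↥(kerJ C0 PhiH) = 32 := by
  unfold kerJ
  rw [Subgroup.card_map_of_injective (Subgroup.subtype_injective _)]
  exact card_ker_range.1

theorem htQ_J2 : tJ ∈ kerJ C0 PhiH := (mem_kerJ2 tJ).2 ⟨zQ, piJ_zQ⟩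

theorem zQ_central (a : ↥QS) : a * zQ = zQ * a := Subtype.ext (Subtype.ext (qs_comm_zP a))

theorem hZ_J2 : ∀ q ∈ kerJ C0 PhiH, (∀ q' ∈ kerJ C0 PhiH, q * q' = q' * q) → q = 1 ∨ q = tJ := by
  intro q hq hcomm
  obtain ⟨a, rfl⟩ := (mem_kerJ2 q).1 hq
  have hcen : ∀ b : ↥QS, b * a = a * b := by
    intro b
    apply qHom_injective
    apply Subtype.ext
    rw [map_mul, map_mul, Subgroup.coe_mul, Subgroup.coe_mul, qHom_val, qHom_val]
    exact (hcomm _ ((mem_kerJ2 _).2 ⟨b, rfl⟩)).symm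
  obtain ⟨z, hz1, hzc, hzcen, -, -, -⟩ := esdata_QS
  have hzQ : zQ = z := by
    rcases hzcen zQ (fun b => zQ_central b) with h | h
    · exact absurd h zQ_ne_one
    · exact h
  rcases hzcen a hcen with h | h
  · left
    rw [h]
    exact map_one piJ
  · right
    rw [h, ← hzQ]
    exact piJ_zQ

/-- the perpendicular reflections, as elements of `Q` -/
theorem perp_mem_kerJ {m : ℕ} (hm : (repL.getD m dV).x = zero) : piJ (fG m) ∈ kerJ C0 PhiH :=
  (mem_kerJ2 _).2 ⟨mkQ (Fk m) (Fk_mem m) (Fk_fix_of_perp hm), rfl⟩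

theorem hCQ_J2 : Subgroup.centralizer (kerJ C0 PhiH : Set J2) ≤ kerJ C0 PhiH := by
  intro c hc
  rw [Subgroup.mem_centralizer_iff] at hc
  have hc0 : c ∈ C0 := (hC_J2 c).2 (hc tJ htQ_J2).symm
  rw [mem_kerJ]
  refine ⟨hc0, Equiv.ext fun i => ?_⟩
  rw [PhiH_apply, Equiv.Perm.one_apply]
  have ha := (aF_ok i).1
  have h1 : c ∈ Subgroup.centralizer {(piJ (rG (xk (aF i))) : J2)} := by
    rw [Subgroup.mem_centralizer_iff]
    intro y hy
    rw [Set.mem_singleton_iff] at hy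
    subst hy
    exact hc _ (perp_mem_kerJ ha.2)
  rw [cent_eq_stab] at h1
  have h2 : c • xk (aF i) = xk (aF i) := h1
  unfold pairSmul
  show pairF (idxOf (c • xk (aF i))) = i
  rw [h2, idxOf_xk ha.1]
  exact pairF_aF i

theorem conj_tJ (k : ℕ) : ∃ d : J2, piJ (fG k) = d * tJ * d⁻¹ := by
  obtain ⟨c, hc⟩ := MulAction.exists_smul_eq J2 (xk 0) (xk k)
  obtain ⟨g, rfl⟩ := QuotientGroup.mk_surjective c
  refine ⟨piJ g, ?_⟩
  have h := piJ_rG_smul g (xk 0)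
  have h1 : g • xk 0 = xk k := hc
  rw [h1] at h
  exact h

theorem perpIdx_x : ∀ m ∈ perpIdxL, (repL.getD m dV).x = zero := by decide +kernel

theorem qwL_letters : ∀ w ∈ qwL, ∀ m ∈ w, m ∈ perpIdxL := by decide +kernel

theorem word_mem_closure : ∀ w : List ℕ, (∀ m ∈ w, m ∈ perpIdxL) →
    piJ ⟨wordG w, wordG_mem w⟩ ∈
      Subgroup.closure {x : J2 | x ∈ kerJ C0 PhiH ∧ ∃ d : J2, x = d * tJ * d⁻¹}
  | [], _ => by
    have : (⟨wordG [], wordG_mem []⟩ : ↥twoJ2) = 1 := rfl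
    rw [this, map_one]
    exact one_mem _
  | m :: w, h => by
    have e : (⟨wordG (m :: w), wordG_mem (m :: w)⟩ : ↥twoJ2) =
        ⟨wordG w, wordG_mem w⟩ * fG m := rfl
    rw [e, map_mul]
    refine mul_mem (word_mem_closure w fun m' hm' => h m' (List.mem_cons_of_mem _ hm')) ?_
    apply Subgroup.subset_closure
    exact ⟨perp_mem_kerJ (perpIdx_x m (h m List.mem_cons_self)), conj_tJ m⟩

theorem hgen_J2 : kerJ C0 PhiH ≤
    Subgroup.closure {x : J2 | x ∈ kerJ C0 PhiH ∧ ∃ d : J2, x = d * tJ * d⁻¹} := by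
  intro x hx
  obtain ⟨q, rfl⟩ := (mem_kerJ2 x).1 hx
  obtain ⟨w, hw, e, -⟩ := qs_word q
  have e2 : (q : ↥twoJ2) = ⟨wordG w, wordG_mem w⟩ := Subtype.ext e
  rw [e2]
  exact word_mem_closure w (qwL_letters w hw)

/-! ### the witness: `Q` is not strongly closed in `C` -/

set_option maxRecDepth 100000 in
theorem wit_ok : wOK [13] 91 0 64 = true ∧ wOK [13] 307 19 56 = true ∧
    wOK [13] 230 28 119 = true ∧ wOK [307] 169 0 47 = true ∧ wOK [230] 169 0 51 = true := by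
  decide +kernel

theorem wordG_single (m : ℕ) : wordG [m] = Fk m := by
  show wordG [] * Fk m = Fk m
  show 1 * Fk m = Fk m
  rw [one_mul]

theorem fG_conj {m k p u : ℕ} (h : wOK [m] k p u = true) : fG m * fG p * (fG m)⁻¹ = fG k := by
  apply Subtype.ext
  have h1 := wOK_spec h
  rw [wordG_single] at h1
  exact h1

theorem piJ_sq_mem {y : J2} (hy : y ∈ kerJ C0 PhiH) : y * y = 1 ∨ y * y = tJ := by
  obtain ⟨q, rfl⟩ := (mem_kerJ2 y).1 hy
  rcases qs_sq q with h | h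
  · left
    rw [← map_mul, ← Subgroup.coe_mul, h]
    exact map_one piJ
  · right
    rw [← map_mul, ← Subgroup.coe_mul, h]
    exact piJ_zQ

theorem hwit_J2 : ∃ x ∈ kerJ C0 PhiH, ∃ d : J2, d * x * d⁻¹ ∈ C0 ∧ d * x * d⁻¹ ∉ kerJ C0 PhiH := by
  obtain ⟨h1, h2, h3, h4, h5⟩ := wit_ok
  have hx19 : (repL.getD 19 dV).x = zero := perpIdx_x 19 (by decide)
  have hx28 : (repL.getD 28 dV).x = zero := perpIdx_x 28 (by decide)
  -- `x = r19 * r28`
  have hxQ : piJ (fG 19 * fG 28) ∈ kerJ C0 PhiH := by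
    rw [map_mul]
    exact mul_mem (perp_mem_kerJ hx19) (perp_mem_kerJ hx28)
  -- `x * x = t`
  have hsq : fG 19 * fG 28 * (fG 19 * fG 28) = nuG * fG 0 := by
    apply Subtype.ext
    show Fk 19 * Fk 28 * (Fk 19 * Fk 28) = nu * Fk 0
    have hc := comm_eq_zP.1
    rw [Fk_inv, Fk_inv] at hc
    rw [Fk0_eq]
    calc Fk 19 * Fk 28 * (Fk 19 * Fk 28) = Fk 19 * Fk 28 * Fk 19 * Fk 28 := by group
      _ = zP := hc
  have hsqJ : piJ (fG 19 * fG 28) * piJ (fG 19 * fG 28) = tJ := by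
    rw [← map_mul, hsq, map_mul, piJ_nuG, one_mul]
    rfl
  -- the conjugate
  have hconj : fG 13 * (fG 19 * fG 28) * (fG 13)⁻¹ = fG 307 * fG 230 := by
    rw [← fG_conj h2, ← fG_conj h3]
    group
  have hyJ : piJ (fG 13) * piJ (fG 19 * fG 28) * (piJ (fG 13))⁻¹ = piJ (fG 307 * fG 230) := by
    rw [← map_inv, ← map_mul, ← map_mul, hconj]
  refine ⟨piJ (fG 19 * fG 28), hxQ, piJ (fG 13), ?_, ?_⟩
  · rw [hyJ]
    show piJ (fG 307 * fG 230) • xk 0 = xk 0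
    rw [piJ_smul]
    apply Subtype.ext
    rw [smul_val]
    show Fk 307 * Fk 230 * Fk 0 * (Fk 307 * Fk 230)⁻¹ = Fk 0
    have e4 := congrArg Subtype.val (fG_conj h4)
    have e5 := congrArg Subtype.val (fG_conj h5)
    have e4' : Fk 307 * Fk 0 * (Fk 307)⁻¹ = Fk 169 := e4
    have e5' : Fk 230 * Fk 0 * (Fk 230)⁻¹ = Fk 169 := e5
    calc Fk 307 * Fk 230 * Fk 0 * (Fk 307 * Fk 230)⁻¹
        = Fk 307 * (Fk 230 * Fk 0 * (Fk 230)⁻¹) * (Fk 307)⁻¹ := by group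
      _ = Fk 307 * (Fk 307 * Fk 0 * (Fk 307)⁻¹) * (Fk 307)⁻¹ := by rw [e5', e4']
      _ = (Fk 307 * Fk 307) * Fk 0 * ((Fk 307)⁻¹ * (Fk 307)⁻¹) := by group
      _ = Fk 0 := by rw [Fk_inv, Fk_mul_self, one_mul, mul_one]
  · intro hmem
    have hsq2 : piJ (fG 13) * piJ (fG 19 * fG 28) * (piJ (fG 13))⁻¹ *
        (piJ (fG 13) * piJ (fG 19 * fG 28) * (piJ (fG 13))⁻¹) = piJ (fG 91) := by
      calc piJ (fG 13) * piJ (fG 19 * fG 28) * (piJ (fG 13))⁻¹ *
            (piJ (fG 13) * piJ (fG 19 * fG 28) * (piJ (fG 13))⁻¹)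
          = piJ (fG 13) * (piJ (fG 19 * fG 28) * piJ (fG 19 * fG 28)) * (piJ (fG 13))⁻¹ := by
            group
        _ = piJ (fG 13) * piJ (fG 0) * (piJ (fG 13))⁻¹ := by rw [hsqJ]; rfl
        _ = piJ (fG 91) := by rw [← map_inv, ← map_mul, ← map_mul, fG_conj h1]
    rcases piJ_sq_mem hmem with h | h
    · rw [hsq2] at h
      obtain ⟨d, hd⟩ := conj_tJ 91
      rw [h] at hd
      apply tJ_ne_one
      calc tJ = d⁻¹ * (d * tJ * d⁻¹) * d := by group
        _ = 1 := by rw [← hd]; group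
    · rw [hsq2] at h
      have h' : piJ (rG (xk 91)) = piJ (rG (xk 0)) := h
      have := xk_inj (by norm_num) (by norm_num) (piJ_rG_inj h')
      norm_num at this

/-- the 2-local data of `J2` -/
noncomputable def j2FD : FD J2 where
  t := tJ
  C := C0
  φ := PhiH
  hcard := card_J2
  hC := hC_J2
  hrange := range_eq
  hker := hker_J2
  htQ := htQ_J2
  ht1 := tJ_ne_one
  hZ := hZ_J2
  hCQ := hCQ_J2
  hgen := hgen_J2
  hwit := hwit_J2

end Cfsg.Agent.H9.J2
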