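import Cfsg.Agent.H9.J2.U3Sub

/-!
# Orbits of the subgroup `H3` of `J₂` on its cosets (helper9)

A coset `g H3` is recorded by the set of those of the 63 reflections that lie in `g • Sx`.
-/

set_option autoImplicit false
open Quaternion

namespace Cfsg.Agent.H9.J2

open Q8 Cfsg.Spor MulAction
open Cfsg.Agent.H6.Ree3 (forceN allN allN_spec forceN_eq sumN sumN_eq)

/-- the reflections of the set that lie in the image of the set under a coset -/
noncomputable def Fset (c : J2 ⧸ H3) : Set (Fin 63) :=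
  Quotient.liftOn' c (fun g => {j | g⁻¹ • eX j ∈ Sx}) (by
    intro a b hab
    have hab' : a⁻¹ * b ∈ H3 := QuotientGroup.leftRel_apply.1 hab
    ext j
    have e : b⁻¹ • eX j = (a⁻¹ * b)⁻¹ • (a⁻¹ • eX j) := by
      rw [← mul_smul]
      congr 1
      group
    show a⁻¹ • eX j ∈ Sx ↔ b⁻¹ • eX j ∈ Sx
    rw [e, H3_mem_iff (H3.inv_mem hab')])

theorem Fset_mk (g : J2) (j : Fin 63) :
    j ∈ Fset (QuotientGroup.mk g : J2 ⧸ H3) ↔ g⁻¹ • eX j ∈ Sx := Iff.rfl

theorem Fset_smul (h : ↥H3) (c : J2 ⧸ H3) (j : Fin 63) :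
    j ∈ Fset (h • c) ↔ (phi3 h)⁻¹ j ∈ Fset c := by
  induction c using QuotientGroup.induction_on with
  | H g =>
    show j ∈ Fset (QuotientGroup.mk ((h : J2) * g) : J2 ⧸ H3) ↔ _
    rw [Fset_mk, Fset_mk, mul_inv_rev, mul_smul]
    have e : (h : J2)⁻¹ • eX j = eX ((phi3 h)⁻¹ j) := by
      rw [inv_smul_eq_iff, phi_spec, perm_apply_inv]
    rw [e]

theorem Fset_ncard_smul (h : ↥H3) (c : J2 ⧸ H3) : (Fset (h • c)).ncard = (Fset c).ncard := by
  have e : Fset (h • c) = (phi3 h) '' Fset c := by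
    ext j
    rw [Fset_smul, Set.mem_image_equiv]
    rfl
  rw [e]
  exact Set.ncard_image_of_injective _ (phi3 h).injective

/-- words in the four generators, as elements of the subgroup -/
noncomputable def hW (w : List ℕ) : ↥H3 := (w.map gH).prod

/-- apply a word backwards to a point -/
def wApI (w : List ℕ) (n : ℕ) : ℕ := w.foldl (fun x s => tauN (sd s) x) n

theorem wApI_lt (w : List ℕ) {n : ℕ} (hn : n < 63) : wApI w n < 63 := by
  induction w generalizing n with
  | nil => exact hn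
  | cons s w ih => exact ih (tauN_lt _ _)

theorem Fset_hW (w : List ℕ) (c : J2 ⧸ H3) (j : Fin 63) :
    j ∈ Fset (hW w • c) ↔ (⟨wApI w j.val, wApI_lt w j.isLt⟩ : Fin 63) ∈ Fset c := by
  induction w generalizing j with
  | nil =>
    show j ∈ Fset ((1 : ↥H3) • c) ↔ _
    rw [one_smul]
    rfl
  | cons s w ih =>
    have e : hW (s :: w) = gH s * hW w := by
      unfold hW
      rw [List.map_cons, List.prod_cons]
    rw [e, mul_smul, Fset_smul, phi_gH]
    have e2 : (tS s)⁻¹ j = ⟨tauN (sd s) j.val, tauN_lt _ _⟩ := rfl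
    rw [e2, ih]
    rfl

/-! ## masks -/

def rootB (T : ℕ) (n : ℕ) : Bool := decide (imgN T n ∈ eL)

/-- the mask of the coset reached by a word -/
def mkN (T : ℕ) (w : List ℕ) : ℕ := sumN 63 fun n => if rootB T (wApI w n) then 2 ^ n else 0

open Classical in
/-- the mask of a coset -/
noncomputable def muC (c : J2 ⧸ H3) : ℕ :=
  sumN 63 fun n => if (∃ h : n < 63, (⟨n, h⟩ : Fin 63) ∈ Fset c) then 2 ^ n else 0

theorem sumN_congr {f g : ℕ → ℕ} (n : ℕ) (h : ∀ k < n, f k = g k) : sumN n f = sumN n g := by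
  rw [sumN_eq, sumN_eq]
  exact Finset.sum_congr rfl (fun k hk => h k (Finset.mem_range.1 hk))

theorem muC_hW {w0 : List ℕ} {T U : ℕ} (hb : chkBase w0 T U = true) (w : List ℕ) :
    muC (hW w • (QuotientGroup.mk (jW w0)⁻¹ : J2 ⧸ H3)) = mkN T w := by
  unfold muC mkN
  apply sumN_congr
  intro n hn
  have key : (∃ h : n < 63, (⟨n, h⟩ : Fin 63) ∈
      Fset (hW w • (QuotientGroup.mk (jW w0)⁻¹ : J2 ⧸ H3))) ↔ rootB T (wApI w n) = true := by
    constructor
    · rintro ⟨h, hm⟩
      rw [Fset_hW, Fset_mk, inv_inv, base_spec hb] at hm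
      exact decide_eq_true hm
    · intro hr
      refine ⟨hn, ?_⟩
      rw [Fset_hW, Fset_mk, inv_inv, base_spec hb]
      exact of_decide_eq_true hr
  by_cases hr : rootB T (wApI w n) = true
  · rw [if_pos (key.2 hr), if_pos hr]
  · rw [if_neg (fun h => hr (key.1 h)), if_neg hr]

/-- the masks of the words are pairwise different -/
def nodupChk (T : ℕ) : List ℕ → List (List ℕ) → Bool
  | _, [] => true
  | acc, w :: ws => forceN (mkN T w) fun m => !(acc.contains m) && nodupChk T (m :: acc) ws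

theorem nodupChk_sound (T : ℕ) : ∀ (ws : List (List ℕ)) (acc : List ℕ),
    nodupChk T acc ws = true → (ws.map (mkN T)).Nodup ∧ ∀ m ∈ ws.map (mkN T), m ∉ acc
  | [], _, _ => ⟨List.nodup_nil, by simp⟩
  | w :: ws, acc, h => by
    rw [nodupChk, forceN_eq, Bool.and_eq_true] at h
    obtain ⟨h1, h2⟩ := h
    obtain ⟨ih1, ih2⟩ := nodupChk_sound T ws (mkN T w :: acc) h2
    have h1' : mkN T w ∉ acc := by simpa using h1
    refine ⟨?_, ?_⟩
    · rw [List.map_cons, List.nodup_cons]
      exact ⟨fun hm => ih2 _ hm List.mem_cons_self, ih1⟩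
    · intro m hm
      rw [List.map_cons, List.mem_cons] at hm
      rcases hm with rfl | hm
      · exact h1'
      · exact fun hacc => ih2 m hm (List.mem_cons_of_mem _ hacc)

set_option maxRecDepth 100000 in
theorem chkO1_true : nodupChk img1Tab [] wL1 = true := by decide +kernel

set_option maxRecDepth 100000 in
theorem chkO2_true : nodupChk img2Tab [] wL2 = true := by decide +kernel

theorem orbit_ge {w0 : List ℕ} {T U : ℕ} (hb : chkBase w0 T U = true) (ws : List (List ℕ))
    (hc : nodupChk T [] ws = true) :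
    ws.length ≤ (orbit ↥H3 (QuotientGroup.mk (jW w0)⁻¹ : J2 ⧸ H3)).ncard := by
  classical
  have := j2_finite
  let L : List (J2 ⧸ H3) := ws.map (fun w => hW w • (QuotientGroup.mk (jW w0)⁻¹ : J2 ⧸ H3))
  have hnd : L.Nodup := by
    apply List.Nodup.of_map muC
    have e : L.map muC = ws.map (mkN T) := by
      rw [List.map_map]
      apply List.map_congr_left
      intro w _
      exact muC_hW hb w
    rw [e]
    exact (nodupChk_sound T ws [] hc).1
  have hsub : (↑L.toFinset : Set (J2 ⧸ H3)) ⊆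
      orbit ↥H3 (QuotientGroup.mk (jW w0)⁻¹ : J2 ⧸ H3) := by
    intro x hx
    rw [Finset.mem_coe, List.mem_toFinset, List.mem_map] at hx
    obtain ⟨w, _, rfl⟩ := hx
    exact ⟨hW w, rfl⟩
  have h1 := Set.ncard_le_ncard hsub (Set.toFinite _)
  rw [Set.ncard_coe_finset, List.toFinset_card_of_nodup hnd, List.length_map] at h1
  exact h1

theorem Fset_base {w0 : List ℕ} {T U : ℕ} (hb : chkBase w0 T U = true) :
    Fset (QuotientGroup.mk (jW w0)⁻¹ : J2 ⧸ H3) =
      ↑(Finset.univ.filter fun j : Fin 63 => rootB T j.val = true) := by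
  ext j
  rw [Fset_mk, inv_inv, base_spec hb, Finset.mem_coe, Finset.mem_filter]
  simp [rootB]

set_option maxRecDepth 100000 in
theorem root1_card :
    (Finset.univ.filter fun j : Fin 63 => rootB img1Tab j.val = true).card = 21 := by
  decide +kernel

set_option maxRecDepth 100000 in
theorem root2_card :
    (Finset.univ.filter fun j : Fin 63 => rootB img2Tab j.val = true).card = 7 := by
  decide +kernel

theorem Fset_one : Fset (QuotientGroup.mk 1 : J2 ⧸ H3) = Set.univ := by
  ext j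
  rw [Fset_mk]
  simp only [inv_one, one_smul, Set.mem_univ, iff_true]
  exact ⟨j, rfl⟩

theorem orbits_36_63 (hH : H3.index = 100) :
    ∃ c₁ c₂ : J2 ⧸ H3, (orbit ↥H3 c₁).ncard = 36 ∧ (orbit ↥H3 c₂).ncard = 63 := by
  classical
  have := j2_finite
  have l1 : wL1.length = 36 := by decide
  have l2 : wL2.length = 63 := by decide
  have g1 := orbit_ge chkB1_true wL1 chkO1_true
  have g2 := orbit_ge chkB2_true wL2 chkO2_true
  rw [l1] at g1
  rw [l2] at g2
  have k0 : (Fset (QuotientGroup.mk 1 : J2 ⧸ H3)).ncard = 63 := by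
    rw [Fset_one, Set.ncard_univ, Nat.card_eq_fintype_card, Fintype.card_fin]
  have k1 : (Fset (QuotientGroup.mk (jW wB1)⁻¹ : J2 ⧸ H3)).ncard = 21 := by
    rw [Fset_base chkB1_true, Set.ncard_coe_finset, root1_card]
  have k2 : (Fset (QuotientGroup.mk (jW wB2)⁻¹ : J2 ⧸ H3)).ncard = 7 := by
    rw [Fset_base chkB2_true, Set.ncard_coe_finset, root2_card]
  have hk : ∀ (c x : J2 ⧸ H3), x ∈ orbit ↥H3 c → (Fset x).ncard = (Fset c).ncard := by
    rintro c _ ⟨h, rfl⟩
    exact Fset_ncard_smul h c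
  have hdisj : Disjoint (orbit ↥H3 (QuotientGroup.mk (jW wB1)⁻¹ : J2 ⧸ H3))
      (orbit ↥H3 (QuotientGroup.mk (jW wB2)⁻¹ : J2 ⧸ H3)) := by
    rw [Set.disjoint_left]
    intro x h1 h2
    have h3 := (hk _ x h1).symm.trans (hk _ x h2)
    rw [k1, k2] at h3
    omega
  have hsub : orbit ↥H3 (QuotientGroup.mk (jW wB1)⁻¹ : J2 ⧸ H3) ∪
      orbit ↥H3 (QuotientGroup.mk (jW wB2)⁻¹ : J2 ⧸ H3) ⊆
      Set.univ \ {(QuotientGroup.mk 1 : J2 ⧸ H3)} := by
    rintro x (h | h)
    · refine ⟨Set.mem_univ _, fun h0 => ?_⟩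
      rw [Set.mem_singleton_iff] at h0
      have h3 := hk _ x h
      rw [h0, k0, k1] at h3
      omega
    · refine ⟨Set.mem_univ _, fun h0 => ?_⟩
      rw [Set.mem_singleton_iff] at h0
      have h3 := hk _ x h
      rw [h0, k0, k2] at h3
      omega
  have hcard := Set.ncard_le_ncard hsub (Set.toFinite _)
  rw [Set.ncard_union_eq hdisj (Set.toFinite _) (Set.toFinite _),
    Set.ncard_sdiff_singleton_of_mem (Set.mem_univ _), Set.ncard_univ] at hcard
  have h100 : Nat.card (J2 ⧸ H3) = 100 := hH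
  rw [h100] at hcard
  exact ⟨(QuotientGroup.mk (jW wB1)⁻¹ : J2 ⧸ H3), (QuotientGroup.mk (jW wB2)⁻¹ : J2 ⧸ H3),
    by omega, by omega⟩

end Cfsg.Agent.H9.J2
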