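import Mathlib
import Cfsg.Agent.H6.Ree3Check
import Cfsg.Agent.H9.J2.U3Data

/-!
# The 63 points as involutions (helper9)

Point `i` of helper6's 63-point model of `U₃(3)` acts on the points as an involution `tauP i`;
all of them lie in the subgroup generated by four of them.
-/

set_option autoImplicit false

namespace Cfsg.Agent.H9.J2

open Cfsg.Agent.H6.Ree3 (forceN allN allN_spec forceN_eq)

/-- point `i` acting on point `j` -/
def tauN (i j : ℕ) : ℕ := ((tauTab >>> (6 * (63 * i + j))) &&& 63) % 63

theorem tauN_lt (i j : ℕ) : tauN i j < 63 := Nat.mod_lt _ (by norm_num)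

def chkTauInv : Bool := allN 63 fun i => allN 63 fun j => tauN i (tauN i j) == j

set_option maxRecDepth 100000 in
theorem chkTauInv_true : chkTauInv = true := by decide +kernel

def tauF (i j : Fin 63) : Fin 63 := ⟨tauN i.val j.val, tauN_lt _ _⟩

theorem tauF_invol (i j : Fin 63) : tauF i (tauF i j) = j := by
  apply Fin.ext
  exact eq_of_beq (allN_spec (allN_spec chkTauInv_true i.val i.isLt) j.val j.isLt)

/-- the involution of the 63 points given by point `i` -/
def tauP (i : Fin 63) : Equiv.Perm (Fin 63) := ⟨tauF i, tauF i, tauF_invol i, tauF_invol i⟩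

theorem tauP_val (i j : Fin 63) : (tauP i j).val = tauN i.val j.val := rfl

theorem tauP_inv (i : Fin 63) : (tauP i)⁻¹ = tauP i := rfl

/-- the four generating points -/
def sd (s : ℕ) : ℕ := seedL.getD s 0

theorem sd_ge {s : ℕ} (h : 4 ≤ s) : sd s = sd 0 := by
  unfold sd
  rw [List.getD_eq_default _ _ (by simpa [seedL] using h)]
  rfl

theorem sd_lt (s : ℕ) : sd s < 63 := by
  by_cases h : s < 4
  · interval_cases s <;> decide
  · rw [sd_ge (by omega)]
    decide

/-- the four generating involutions -/
def tS (s : ℕ) : Equiv.Perm (Fin 63) := tauP ⟨sd s, sd_lt s⟩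

theorem tS_val (s : ℕ) (j : Fin 63) : (tS s j).val = tauN (sd s) j.val := rfl

/-- apply a word in the four generators -/
def wAs (w : List ℕ) (x : ℕ) : ℕ := w.foldr (fun s acc => tauN (sd s) acc) x

theorem wAs_mem : ∀ w : List ℕ, ∃ g ∈ Subgroup.closure (Set.range tS),
    ∀ i : Fin 63, (g i).val = wAs w i.val
  | [] => ⟨1, Subgroup.one_mem _, fun _ => rfl⟩
  | s :: w => by
    obtain ⟨g, hg, h⟩ := wAs_mem w
    refine ⟨tS s * g, Subgroup.mul_mem _ (Subgroup.subset_closure ⟨s, rfl⟩) hg, fun i => ?_⟩
    show tauN (sd s) (g i).val = tauN (sd s) (wAs w i.val)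
    rw [h i]

def chkCert : Bool := allN 63 fun i => allN 63 fun x => wAs (certL.getD i []) x == tauN i x

set_option maxRecDepth 100000 in
theorem chkCert_true : chkCert = true := by decide +kernel

theorem tauP_mem (i : Fin 63) : tauP i ∈ Subgroup.closure (Set.range tS) := by
  obtain ⟨g, hg, h⟩ := wAs_mem (certL.getD i.val [])
  have e : tauP i = g := by
    refine Equiv.ext fun x => Fin.ext ?_
    rw [h x, tauP_val]
    exact (eq_of_beq (allN_spec (allN_spec chkCert_true i.val i.isLt) x.val x.isLt)).symm
  rw [e]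
  exact hg

theorem closure_tauP_le :
    Subgroup.closure (Set.range tauP) ≤ Subgroup.closure (Set.range tS) := by
  rw [Subgroup.closure_le]
  rintro _ ⟨i, rfl⟩
  exact tauP_mem i

end Cfsg.Agent.H9.J2
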