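import Cfsg.Agent.H6.G22
import Cfsg.Agent.H9.J2.U3Tau

/-!
# The image of `SU₃(3)` on the 63 points lies in the group generated by the 63 involutions
(helper9)

helper6's permutation representation `rho` of `SU₃(3)` has its image in the derived group of
the group generated by the 24 root elements `sg`; that derived group is contained in the group
generated by the involutions `tauP`.
-/

set_option autoImplicit false

namespace Cfsg.Agent.H9.J2

open Cfsg.Agent.H6.Ree3 (forceN allN allN_spec forceN_eq)
open Cfsg.Agent.H6.G22 (sg sgN sg_val rho range_le su9_perfect)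
open scoped commutatorElement

/-- a subgroup normalised by a set of elements and containing their commutators contains the
derived group of the group they generate -/
theorem comm_le_of_gens {G : Type*} [Group G] (T : Set G) (N : Subgroup G)
    (hn : ∀ t ∈ T, ∀ n ∈ N, t * n * t⁻¹ ∈ N) (hn' : ∀ t ∈ T, ∀ n ∈ N, t⁻¹ * n * t ∈ N)
    (hc : ∀ s ∈ T, ∀ t ∈ T, ⁅s, t⁆ ∈ N) :
    ⁅Subgroup.closure T, Subgroup.closure T⁆ ≤ N := by
  have hnorm : ∀ a ∈ Subgroup.closure T,
      (∀ n ∈ N, a * n * a⁻¹ ∈ N) ∧ (∀ n ∈ N, a⁻¹ * n * a ∈ N) := by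
    intro a ha
    induction ha using Subgroup.closure_induction with
    | mem x hx => exact ⟨hn x hx, hn' x hx⟩
    | one => exact ⟨fun n hn => by simpa using hn, fun n hn => by simpa using hn⟩
    | mul x y _ _ hx hy =>
      refine ⟨fun n hn => ?_, fun n hn => ?_⟩
      · have h1 := hx.1 _ (hy.1 n hn)
        have e : x * y * n * (x * y)⁻¹ = x * (y * n * y⁻¹) * x⁻¹ := by group
        rw [e]
        exact h1
      · have h1 := hy.2 _ (hx.2 n hn)
        have e : (x * y)⁻¹ * n * (x * y) = y⁻¹ * (x⁻¹ * n * x) * y := by group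
        rw [e]
        exact h1
    | inv x _ hx =>
      refine ⟨fun n hn => ?_, fun n hn => ?_⟩
      · have h1 := hx.2 n hn
        rwa [inv_inv]
      · have h1 := hx.1 n hn
        rwa [inv_inv]
  have h1 : ∀ t ∈ T, ∀ b ∈ Subgroup.closure T, ⁅t, b⁆ ∈ N := by
    intro t ht b hb
    induction hb using Subgroup.closure_induction with
    | mem x hx => exact hc t ht x hx
    | one =>
      rw [commutatorElement_one_right]
      exact N.one_mem
    | mul x y hx _ ihx ihy =>
      have e : ⁅t, x * y⁆ = ⁅t, x⁆ * (x * ⁅t, y⁆ * x⁻¹) := by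
        simp only [commutatorElement_def]
        group
      rw [e]
      exact N.mul_mem ihx ((hnorm x hx).1 _ ihy)
    | inv x hx ihx =>
      have e : ⁅t, x⁻¹⁆ = x⁻¹ * ⁅t, x⁆⁻¹ * x := by
        simp only [commutatorElement_def]
        group
      rw [e]
      exact (hnorm x hx).2 _ (N.inv_mem ihx)
  rw [Subgroup.commutator_le]
  intro a ha b hb
  induction ha using Subgroup.closure_induction with
  | mem x hx => exact h1 x hx b hb
  | one =>
    rw [commutatorElement_one_left]
    exact N.one_mem
  | mul x y hx _ ihx ihy =>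
    have e : ⁅x * y, b⁆ = x * ⁅y, b⁆ * x⁻¹ * ⁅x, b⁆ := by
      simp only [commutatorElement_def]
      group
    rw [e]
    exact N.mul_mem ((hnorm x hx).1 _ ihy) ihx
  | inv x hx ihx =>
    have e : ⁅x⁻¹, b⁆ = x⁻¹ * ⁅x, b⁆⁻¹ * x := by
      simp only [commutatorElement_def]
      group
    rw [e]
    exact (hnorm x hx).2 _ (N.inv_mem ihx)

/-! ## the root elements normalise the group of the involutions -/

def chkSgInv : Bool := allN 24 fun k => allN 63 fun x => sgN k (sgN k x) == x

set_option maxRecDepth 100000 in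
theorem chkSgInv_true : chkSgInv = true := by decide +kernel

theorem sg_sg (k : Fin 24) (x : Fin 63) : sg k (sg k x) = x := by
  apply Fin.ext
  rw [sg_val, sg_val]
  exact eq_of_beq (allN_spec (allN_spec chkSgInv_true k.val k.isLt) x.val x.isLt)

theorem sg_inv (k : Fin 24) : (sg k)⁻¹ = sg k := by
  rw [inv_eq_iff_mul_eq_one]
  exact Equiv.ext fun x => sg_sg k x

def chkNorm : Bool := allN 24 fun k => allN 63 fun i => forceN (sgN k i) fun i' =>
  allN 63 fun y => sgN k (tauN i y) == tauN i' (sgN k y)

set_option maxRecDepth 100000 in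
theorem chkNorm_true : chkNorm = true := by decide +kernel

theorem sg_conj (k : Fin 24) (i : Fin 63) : sg k * tauP i * (sg k)⁻¹ = tauP (sg k i) := by
  refine Equiv.ext fun x => ?_
  rw [sg_inv]
  have hx : x = sg k (sg k x) := (sg_sg k x).symm
  show sg k (tauP i (sg k x)) = tauP (sg k i) x
  conv_rhs => rw [hx]
  apply Fin.ext
  rw [sg_val, tauP_val, tauP_val, sg_val, sg_val]
  have h0 := allN_spec (allN_spec chkNorm_true k.val k.isLt) i.val i.isLt
  rw [forceN_eq] at h0
  exact eq_of_beq (allN_spec h0 (sg k x).val (sg k x).isLt)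

theorem sg_norm (k : Fin 24) {n : Equiv.Perm (Fin 63)}
    (hn : n ∈ Subgroup.closure (Set.range tauP)) :
    sg k * n * (sg k)⁻¹ ∈ Subgroup.closure (Set.range tauP) := by
  induction hn using Subgroup.closure_induction with
  | mem x hx =>
    obtain ⟨i, rfl⟩ := hx
    rw [sg_conj]
    exact Subgroup.subset_closure ⟨_, rfl⟩
  | one =>
    have e : sg k * 1 * (sg k)⁻¹ = 1 := by group
    rw [e]
    exact Subgroup.one_mem _
  | mul x y _ _ hx hy =>
    have e : sg k * (x * y) * (sg k)⁻¹ = (sg k * x * (sg k)⁻¹) * (sg k * y * (sg k)⁻¹) := by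
      group
    rw [e]
    exact Subgroup.mul_mem _ hx hy
  | inv x _ hx =>
    have e : sg k * x⁻¹ * (sg k)⁻¹ = (sg k * x * (sg k)⁻¹)⁻¹ := by group
    rw [e]
    exact Subgroup.inv_mem _ hx

/-! ## commutators of root elements -/

def tauW (a x : ℕ) : ℕ := if a < 63 then tauN a x else x

/-- apply a word in the 63 involutions -/
def wAq (w : List ℕ) (x : ℕ) : ℕ := w.foldr (fun a acc => tauW a acc) x

theorem wAq_mem : ∀ w : List ℕ, ∃ g ∈ Subgroup.closure (Set.range tauP),
    ∀ i : Fin 63, (g i).val = wAq w i.val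
  | [] => ⟨1, Subgroup.one_mem _, fun _ => rfl⟩
  | a :: w => by
    obtain ⟨g, hg, h⟩ := wAq_mem w
    by_cases ha : a < 63
    · refine ⟨tauP ⟨a, ha⟩ * g, Subgroup.mul_mem _ (Subgroup.subset_closure ⟨_, rfl⟩) hg,
        fun i => ?_⟩
      show tauN a (g i).val = tauW a (wAq w i.val)
      rw [h i, tauW, if_pos ha]
    · refine ⟨g, hg, fun i => ?_⟩
      show _ = tauW a (wAq w i.val)
      rw [h i, tauW, if_neg ha]

def chkComm : Bool := allN 24 fun k => allN 24 fun l => allN 63 fun x =>
  sgN k (sgN l (sgN k (sgN l x))) == wAq ((ccL.getD k []).getD l []) x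

set_option maxRecDepth 100000 in
theorem chkComm_true : chkComm = true := by decide +kernel

theorem sg_comm_mem (k l : Fin 24) : ⁅sg k, sg l⁆ ∈ Subgroup.closure (Set.range tauP) := by
  obtain ⟨g, hg, h⟩ := wAq_mem ((ccL.getD k.val []).getD l.val [])
  have e : ⁅sg k, sg l⁆ = g := by
    refine Equiv.ext fun x => Fin.ext ?_
    rw [h x, commutatorElement_def, sg_inv, sg_inv]
    show (sg k (sg l (sg k (sg l x)))).val = _
    rw [sg_val, sg_val, sg_val, sg_val]
    exact eq_of_beq (allN_spec (allN_spec (allN_spec chkComm_true k.val k.isLt) l.val l.isLt)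
      x.val x.isLt)
  rw [e]
  exact hg

/-- the image of `SU₃(3)` lies in the group generated by the four involutions -/
theorem rho_range_le : rho.range ≤ Subgroup.closure (Set.range tS) := by
  refine le_trans ?_ closure_tauP_le
  refine le_trans (Cfsg.Agent.H6.GroupAux.range_le_commutator rho su9_perfect _ range_le) ?_
  apply comm_le_of_gens
  · rintro _ ⟨k, rfl⟩ n hn
    exact sg_norm k hn
  · rintro _ ⟨k, rfl⟩ n hn
    have h1 := sg_norm k hn
    rw [sg_inv] at h1 ⊢
    exact h1
  · rintro _ ⟨k, rfl⟩ _ ⟨l, rfl⟩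
    exact sg_comm_mem k l

end Cfsg.Agent.H9.J2
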