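import Cfsg.Agent.H9.J2.A5
import Cfsg.Agent.H9.J2.U3Tau

/-!
# A subgroup of `J₂` generated by four reflections, acting on 63 reflections (helper9)

`H3` is generated by four reflections; it permutes a set of 63 reflections as helper6's model
of `U₃(3)` permutes its 63 points.  We bound its order by `6048` and find its orbits on its
cosets.
-/

set_option autoImplicit false
open Quaternion

namespace Cfsg.Agent.H9.J2

open Q8 Cfsg.Spor MulAction
open Cfsg.Agent.H6.Ree3 (forceN allN allN_spec forceN_eq sumN sumN_eq)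

theorem j2_finite : Finite J2 := Nat.finite_of_card_ne_zero (by rw [card_J2]; norm_num)

/-- words as elements of `J2` -/
noncomputable def jW (w : List ℕ) : J2 := piJ ⟨wordG w, wordG_mem w⟩

theorem jW_smul {w : List ℕ} {k p ui : ℕ} (h : wOK w k p ui = true) : jW w • xk p = xk k := by
  unfold jW
  rw [piJ_smul]
  exact Subtype.ext (wOK_spec h)

/-- index of the `j`-th reflection of the set -/
def eN (j : ℕ) : ℕ := eL.getD j 0

theorem eL_length : eL.length = 63 := by decide

def chkE : Bool :=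
  allN 63 fun j => decide (eN j < 315) && allN 63 fun j' => (j == j') || (eN j != eN j')

set_option maxRecDepth 100000 in
theorem chkE_true : chkE = true := by decide +kernel

theorem eN_lt {j : ℕ} (hj : j < 63) : eN j < 315 := by
  have h := allN_spec chkE_true j hj
  rw [Bool.and_eq_true, decide_eq_true_eq] at h
  exact h.1

theorem eN_inj {j j' : ℕ} (hj : j < 63) (hj' : j' < 63) (h : eN j = eN j') : j = j' := by
  have h0 := allN_spec chkE_true j hj
  rw [Bool.and_eq_true] at h0
  have h1 := allN_spec h0.2 j' hj'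
  rw [Bool.or_eq_true] at h1
  rcases h1 with h1 | h1
  · exact eq_of_beq h1
  · exfalso
    rw [h] at h1
    simp at h1

/-- the 63 reflections -/
noncomputable def eX (j : Fin 63) : XR := xk (eN j.val)

theorem eX_inj : Function.Injective eX := fun j j' h =>
  Fin.ext (eN_inj j.isLt j'.isLt (xk_inj (eN_lt j.isLt) (eN_lt j'.isLt) h))

/-- the set of the 63 reflections -/
def Sx : Set XR := Set.range eX

theorem mem_Sx {k : ℕ} (hk : k < 315) : xk k ∈ Sx ↔ k ∈ eL := by
  constructor
  · rintro ⟨j, hj⟩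
    have h1 := xk_inj (eN_lt j.isLt) hk hj
    rw [← h1]
    unfold eN
    rw [List.getD_eq_getElem _ _ (by rw [eL_length]; exact j.isLt)]
    exact List.getElem_mem _
  · intro h
    obtain ⟨j, hj, rfl⟩ := List.getElem_of_mem h
    refine ⟨⟨j, by rw [eL_length] at hj; exact hj⟩, ?_⟩
    show xk (eN j) = _
    unfold eN
    rw [List.getD_eq_getElem _ _ hj]

/-! ## the four generators -/

noncomputable def gJ (s : ℕ) : J2 := jW [eN (sd s)]

def u1N (s j : ℕ) : ℕ := (uF1Tab >>> (7 * (63 * s + j))) &&& 127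

def chkF1 : Bool := allN 4 fun s => forceN (sd s) fun a => allN 63 fun j =>
  wOK [eN a] (eN (tauN a j)) (eN j) (u1N s j)

set_option maxRecDepth 100000 in
theorem chkF1_true : chkF1 = true := by decide +kernel

theorem gJ_smul (s : ℕ) (j : Fin 63) : gJ s • eX j = eX (tS s j) := by
  by_cases hs : s < 4
  · have h0 := allN_spec chkF1_true s hs
    rw [forceN_eq] at h0
    exact jW_smul (allN_spec h0 j.val j.isLt)
  · have h4 : sd s = sd 0 := sd_ge (by omega)
    have e1 : gJ s = gJ 0 := by unfold gJ; rw [h4]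
    have e2 : tS s = tS 0 := by unfold tS; exact congrArg tauP (Fin.ext h4)
    rw [e1, e2]
    have h0 := allN_spec chkF1_true 0 (by norm_num)
    rw [forceN_eq] at h0
    exact jW_smul (allN_spec h0 j.val j.isLt)

/-- the subgroup generated by the four reflections -/
noncomputable def H3 : Subgroup J2 := Subgroup.closure (Set.range gJ)

theorem H3_perm {h : J2} (hh : h ∈ H3) :
    ∃ σ : Equiv.Perm (Fin 63), ∀ j, h • eX j = eX (σ j) := by
  induction hh using Subgroup.closure_induction with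
  | mem x hx =>
    obtain ⟨s, rfl⟩ := hx
    exact ⟨tS s, gJ_smul s⟩
  | one => exact ⟨1, fun j => one_smul _ _⟩
  | mul x y _ _ hx hy =>
    obtain ⟨σ, hσ⟩ := hx
    obtain ⟨ρ, hρ⟩ := hy
    exact ⟨σ * ρ, fun j => by rw [mul_smul, hρ, hσ]; rfl⟩
  | inv x _ hx =>
    obtain ⟨σ, hσ⟩ := hx
    exact ⟨σ⁻¹, fun j => by rw [inv_smul_eq_iff, hσ, perm_apply_inv]⟩

theorem H3_mem_iff {h : J2} (hh : h ∈ H3) (y : XR) : h • y ∈ Sx ↔ y ∈ Sx := by
  obtain ⟨σ, hσ⟩ := H3_perm hh
  constructor
  · rintro ⟨j, hj⟩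
    refine ⟨σ⁻¹ j, ?_⟩
    have h1 := hσ (σ⁻¹ j)
    rw [perm_apply_inv] at h1
    exact MulAction.injective h (h1.trans hj)
  · rintro ⟨j, rfl⟩
    exact ⟨σ j, (hσ j).symm⟩

noncomputable def phiF (h : ↥H3) : Equiv.Perm (Fin 63) := Classical.choose (H3_perm h.2)

theorem phiF_spec (h : ↥H3) (j : Fin 63) : (h : J2) • eX j = eX (phiF h j) :=
  Classical.choose_spec (H3_perm h.2) j

/-- the action on the 63 reflections, as a homomorphism -/
noncomputable def phi3 : ↥H3 →* Equiv.Perm (Fin 63) :=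
  MonoidHom.mk' phiF (fun a b => by
    refine Equiv.ext fun j => eX_inj ?_
    rw [← phiF_spec, Subgroup.coe_mul, mul_smul, phiF_spec, phiF_spec]
    rfl)

theorem phi_spec (h : ↥H3) (j : Fin 63) : (h : J2) • eX j = eX (phi3 h j) := phiF_spec h j

/-- the generators as elements of the subgroup -/
noncomputable def gH (s : ℕ) : ↥H3 := ⟨gJ s, Subgroup.subset_closure ⟨s, rfl⟩⟩

theorem phi_gH (s : ℕ) : phi3 (gH s) = tS s := by
  refine Equiv.ext fun j => eX_inj ?_
  rw [← phi_spec]
  exact gJ_smul s j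

theorem tS_le_range : Subgroup.closure (Set.range tS) ≤ phi3.range := by
  rw [Subgroup.closure_le]
  rintro _ ⟨s, rfl⟩
  exact ⟨gH s, phi_gH s⟩

/-! ## the order is at most 6048 -/

theorem eX_zero : eX ⟨0, by norm_num⟩ = xk 0 := rfl

theorem orbit_sub : orbit ↥H3 (xk 0) ⊆ Sx := by
  rintro _ ⟨h, rfl⟩
  obtain ⟨σ, hσ⟩ := H3_perm h.2
  refine ⟨σ ⟨0, by norm_num⟩, ?_⟩
  rw [← hσ, eX_zero]
  rfl

theorem card_H3_eq :
    Nat.card ↥H3 = Nat.card ↥(stabilizer ↥H3 (xk 0)) * (orbit ↥H3 (xk 0)).ncard := by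
  rw [← index_stabilizer, Subgroup.card_mul_index]

/-- the part of the subgroup in the stabiliser of the first reflection -/
noncomputable def B3 : Subgroup ↥C0 := H3.subgroupOf C0

theorem card_stab_le : Nat.card ↥(stabilizer ↥H3 (xk 0)) ≤ Nat.card ↥B3 := by
  have := j2_finite
  let f : ↥(stabilizer ↥H3 (xk 0)) → ↥B3 :=
    fun x => ⟨⟨(x.1 : J2), x.2⟩, Subgroup.mem_subgroupOf.2 x.1.2⟩
  apply Nat.card_le_card_of_injective f
  intro x y h
  apply Subtype.ext
  apply Subtype.ext
  exact congrArg (fun b : ↥B3 => ((b : ↥C0) : J2)) h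

def chkPerp : Bool := allN 63 fun j => forceN (eN j) fun k =>
  !(decide ((repL.getD k dV).x = zero)) || decide (pairN k ∈ f3L)

set_option maxRecDepth 100000 in
theorem chkPerp_true : chkPerp = true := by decide +kernel

set_option maxRecDepth 100000 in
theorem chkA : ∀ i : Fin 5, i.val ∈ f3L → ∃ j : Fin 63, eN j.val = aF i := by decide +kernel

theorem B3_phi {b : ↥C0} (hb : b ∈ B3) (i : Fin 5) (hi : i.val ∈ f3L) :
    (PhiH b i).val ∈ f3L := by
  have hbH : (b : J2) ∈ H3 := Subgroup.mem_subgroupOf.1 hb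
  obtain ⟨σ, hσ⟩ := H3_perm hbH
  obtain ⟨j, hj⟩ := chkA i hi
  have hperp := perp_smul (C0_fix b) (aF_ok i).1
  have e1 : (b : J2) • xk (aF i) = xk (eN (σ j).val) := by
    rw [← hj]
    exact hσ j
  rw [PhiH_apply]
  unfold pairSmul
  rw [e1, idxOf_xk (eN_lt (σ j).isLt)] at hperp ⊢
  rw [pairF_val hperp]
  have h0 := allN_spec chkPerp_true (σ j).val (σ j).isLt
  rw [forceN_eq] at h0
  simp only [Bool.or_eq_true, Bool.not_eq_true', decide_eq_false_iff_not,
    decide_eq_true_eq] at h0
  rcases h0 with h0 | h0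
  · exact absurd hperp.2 h0
  · exact h0

/-- even permutations of the five frames preserving the three frames of the set -/
def W3 : Finset (Equiv.Perm (Fin 5)) :=
  Finset.univ.filter fun σ => Equiv.Perm.sign σ = 1 ∧ ∀ i : Fin 5, i.val ∈ f3L → (σ i).val ∈ f3L

set_option maxRecDepth 100000 in
theorem W3_card : W3.card = 6 := by decide +kernel

/-! ### an element of the kernel outside the subgroup -/

def imgN (T j : ℕ) : ℕ := (T >>> (9 * j)) &&& 511
def unN (T j : ℕ) : ℕ := (T >>> (7 * j)) &&& 127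

/-- the word `w` maps the `j`-th reflection of the set to the reflection `imgN T j` -/
def chkBase (w : List ℕ) (T U : ℕ) : Bool := allN 63 fun j => forceN (imgN T j) fun k =>
  decide (k < 315) && wOK w k (eN j) (unN U j)

theorem base_spec {w : List ℕ} {T U : ℕ} (h : chkBase w T U = true) (j : Fin 63) :
    jW w • eX j ∈ Sx ↔ imgN T j.val ∈ eL := by
  have h0 := allN_spec h j.val j.isLt
  rw [forceN_eq, Bool.and_eq_true, decide_eq_true_eq] at h0
  have e : jW w • eX j = xk (imgN T j.val) := jW_smul h0.2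
  rw [e]
  exact mem_Sx h0.1

set_option maxRecDepth 100000 in
theorem chkB1_true : chkBase wB1 img1Tab u1Tab = true := by decide +kernel

set_option maxRecDepth 100000 in
theorem chkB2_true : chkBase wB2 img2Tab u2Tab = true := by decide +kernel

set_option maxRecDepth 100000 in
theorem rep28_x : (repL.getD 28 dV).x = zero := by decide +kernel

noncomputable def qC : ↥C0 := qHom (mkQ (Fk 28) (Fk_mem 28) (Fk_fix_of_perp rep28_x))

theorem qC_ker : qC ∈ PhiH.ker := MonoidHom.mem_ker.2 (qHom_ker _)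

theorem qC_val : (qC : J2) = jW wB2 := by
  show piJ ⟨Fk 28, Fk_mem 28⟩ = piJ ⟨wordG [28], wordG_mem [28]⟩
  congr 1

def j0 : ℕ := 2

set_option maxRecDepth 100000 in
theorem j0_ok : j0 < 63 ∧ imgN img2Tab j0 ∉ eL := by decide +kernel

theorem qC_not_B3 : qC ∉ B3 := by
  intro h
  have hH : (qC : J2) ∈ H3 := Subgroup.mem_subgroupOf.1 h
  rw [qC_val] at hH
  have h1 : jW wB2 • eX ⟨j0, j0_ok.1⟩ ∈ Sx := (H3_mem_iff hH _).2 ⟨_, rfl⟩
  rw [base_spec chkB2_true] at h1
  exact j0_ok.2 h1

theorem card_B3_le : Nat.card ↥B3 ≤ 96 := by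
  have := j2_finite
  let ψ : ↥B3 →* Equiv.Perm (Fin 5) := PhiH.comp B3.subtype
  have h1 := Subgroup.card_mul_index ψ.ker
  rw [Subgroup.index_ker] at h1
  have hr : Nat.card ↥ψ.range ≤ 6 := by
    have e : Nat.card ↥ψ.range = (ψ.range : Set (Equiv.Perm (Fin 5))).ncard :=
      Nat.card_coe_set_eq _
    rw [e]
    have hsub : (ψ.range : Set (Equiv.Perm (Fin 5))) ⊆ (W3 : Set (Equiv.Perm (Fin 5))) := by
      rintro _ ⟨b, rfl⟩
      rw [Finset.mem_coe, W3, Finset.mem_filter]
      refine ⟨Finset.mem_univ _, ?_, fun i hi => B3_phi b.2 i hi⟩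
      have hm : PhiH (b : ↥C0) ∈ alternatingGroup (Fin 5) := by
        rw [← range_eq]
        exact ⟨_, rfl⟩
      exact Equiv.Perm.mem_alternatingGroup.1 hm
    have h2 := Set.ncard_le_ncard hsub (Set.toFinite _)
    rw [Set.ncard_coe_finset, W3_card] at h2
    exact h2
  have hk : Nat.card ↥ψ.ker ≤ 16 := by
    let D : Subgroup ↥C0 := B3 ⊓ PhiH.ker
    have hinj : Nat.card ↥ψ.ker ≤ Nat.card ↥D := by
      let f : ↥ψ.ker → ↥D := fun x => ⟨(x.1 : ↥C0), ⟨x.1.2, x.2⟩⟩
      apply Nat.card_le_card_of_injective f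
      intro x y h
      apply Subtype.ext
      apply Subtype.ext
      exact congrArg (fun d : ↥D => (d : ↥C0)) h
    have hD : Nat.card ↥D ∣ 32 := by
      have h3 := Subgroup.card_dvd_of_le (inf_le_right : D ≤ PhiH.ker)
      rwa [card_ker_range.1] at h3
    have hne : Nat.card ↥D ≠ 32 := by
      intro h32
      have h4 : D = PhiH.ker :=
        Subgroup.eq_of_le_of_card_ge inf_le_right (by rw [card_ker_range.1, h32])
      have hq : qC ∈ D := by
        rw [h4]
        exact qC_ker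
      exact qC_not_B3 hq.1
    have h16 : Nat.card ↥D ≤ 16 := by
      obtain ⟨k, hk⟩ := hD
      have hk0 : k ≠ 0 := by
        rintro rfl
        omega
      have hk1 : k ≠ 1 := by
        rintro rfl
        omega
      have hk2 : 2 ≤ k := by omega
      nlinarith
    exact hinj.trans h16
  calc Nat.card ↥B3 = Nat.card ↥ψ.ker * Nat.card ↥ψ.range := h1.symm
    _ ≤ 16 * 6 := Nat.mul_le_mul hk hr

theorem card_H3_le : Nat.card ↥H3 ≤ 6048 := by
  have := j2_finite
  rw [card_H3_eq]
  have h1 : (orbit ↥H3 (xk 0)).ncard ≤ 63 := by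
    refine (Set.ncard_le_ncard orbit_sub (Set.toFinite _)).trans ?_
    unfold Sx
    rw [← Set.image_univ]
    refine (Set.ncard_image_le (Set.toFinite _)).trans ?_
    rw [Set.ncard_univ, Nat.card_eq_fintype_card, Fintype.card_fin]
  have h2 := card_stab_le.trans card_B3_le
  calc Nat.card ↥(stabilizer ↥H3 (xk 0)) * (orbit ↥H3 (xk 0)).ncard ≤ 96 * 63 :=
        Nat.mul_le_mul h2 h1
    _ = 6048 := by norm_num

end Cfsg.Agent.H9.J2
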